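import Groth.Agent.Pic13.H935.PerfRestr
import Groth.Agent.PerfC.LpullFlat
import Groth.Agent.PerfC.ClosedPush
import Groth.Agent.PerfC.TildePush
import Groth.Agent.Dcoh.DerSch
import Groth.Agent.Dcoh.LocalD
import Groth.Agent.PerfA.PCohQCoh
import Groth.Agent.PerfA.TildeMain
import Groth.Agent.PerfB.TildeExact
import Groth.Agent.S1105

/-!
# The direct image of a perfect complex along a perfect closed immersion is perfect
-/

set_option autoImplicit false

universe u

open CategoryTheory CategoryTheory.Limits AlgebraicGeometry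

attribute [local instance] HasDerivedCategory.standard

namespace Groth.Agent.Pic13.H935.PerfClosed

section Tilde

variable {R S : CommRingCat.{u}} (φ : R ⟶ S)

/-- `R(Spec φ)_* (M~) = (M_R)~` for a closed immersion `Spec φ`. -/
lemma nonempty_rpush_tilde [PreservesFiniteLimits (tilde.functor R)]
    [PreservesFiniteLimits (tilde.functor S)] [IsClosedImmersion (Spec.map φ)]
    [DCoh.HasRpush (Spec.map φ)] (M : DerivedCategory (ModuleCat.{u} S)) :
    Nonempty ((DCoh.Rpush (Spec.map φ)).obj ((DCoh.tildeD S).obj M) ≅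
      (DCoh.tildeD R).obj ((DRing.restrictD φ.hom).obj M)) := by
  have : PreservesFiniteColimits (Scheme.Modules.pushforward (Spec.map φ)) :=
    Groth.Agent.PerfC.ClosedPush.preservesFiniteColimits _
  let K := DerivedCategory.Q.objPreimage M
  let e : DerivedCategory.Q.obj K ≅ M := DerivedCategory.Q.objObjPreimageIso M
  let T := ((tilde.functor S).mapHomologicalComplex (ComplexShape.up ℤ)).obj K
  let e1 : (DCoh.tildeD S).obj M ≅ DerivedCategory.Q.obj T :=
    (DCoh.tildeD S).mapIso e.symm ≪≫ (tilde.functor S).mapDerivedCategoryFactors.app K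
  let e2 : (DCoh.Rpush (Spec.map φ)).obj (DerivedCategory.Q.obj T) ≅
      DerivedCategory.Q.obj (((Scheme.Modules.pushforward (Spec.map φ)).mapHomologicalComplex
        (ComplexShape.up ℤ)).obj T) :=
    (Groth.Agent.PerfC.LpullFlat.rpushIso (Spec.map φ)).app _ ≪≫
      (Scheme.Modules.pushforward (Spec.map φ)).mapDerivedCategoryFactors.app T
  let e3 : ((Scheme.Modules.pushforward (Spec.map φ)).mapHomologicalComplex
        (ComplexShape.up ℤ)).obj T ≅
      ((tilde.functor R).mapHomologicalComplex (ComplexShape.up ℤ)).obj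
        (((ModuleCat.restrictScalars.{u} φ.hom).mapHomologicalComplex (ComplexShape.up ℤ)).obj K) :=
    (NatIso.mapHomologicalComplex (Groth.Agent.PerfC.TildePush.tildePushIso φ)
      (ComplexShape.up ℤ)).app K
  exact ⟨(DCoh.Rpush (Spec.map φ)).mapIso e1 ≪≫ e2 ≪≫ DerivedCategory.Q.mapIso e3 ≪≫
    ((tilde.functor R).mapDerivedCategoryFactors.app
      (((ModuleCat.restrictScalars.{u} φ.hom).mapHomologicalComplex (ComplexShape.up ℤ)).obj K)).symm ≪≫
    (DCoh.tildeD R).mapIso
      (((ModuleCat.restrictScalars.{u} φ.hom).mapDerivedCategoryFactors.app K).symm ≪≫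
        (DRing.restrictD φ.hom).mapIso e)⟩

end Tilde

/-- The affine case. -/
theorem spec_case {R S : CommRingCat.{u}} (φ : R ⟶ S) [DCoh.HasRpush (Spec.map φ)]
    (hs : Function.Surjective φ.hom)
    (h : letI := φ.hom.toAlgebra; MoreMor.IsPerfectHom R S) (E : DCoh.D (Spec S))
    (hE : DCoh.IsPerfect E) : DCoh.IsPerfect ((DCoh.Rpush (Spec.map φ)).obj E) := by
  have hR : PreservesFiniteLimits (tilde.functor R) :=
    Groth.Agent.PerfB.TildeExact.preservesFiniteLimits_tilde _
  have hS : PreservesFiniteLimits (tilde.functor S) :=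
    Groth.Agent.PerfB.TildeExact.preservesFiniteLimits_tilde _
  have hc : IsClosedImmersion (Spec.map φ) := IsClosedImmersion.spec_of_surjective _ hs
  obtain ⟨M, ⟨e⟩⟩ := PerfA.TildeMain.exists_iso S E
    (Groth.Agent.PerfA.PCohQCoh.isQCohD_of_isPerfect hE)
  obtain ⟨a⟩ := nonempty_rpush_tilde φ M
  have h1 : DCoh.IsPerfect ((DCoh.tildeD S).obj M) := Dcoh.LocalD.isPerfect_of_iso e.symm hE
  have h2 : DRing.IsPerfect S M := (Groth.Agent.S1105.result S M).1 h1
  have h3 : DRing.IsPerfect R ((DRing.restrictD φ.hom).obj M) :=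
    PerfRestr.isPerfect_restrictD_of_isPerfectHom φ.hom hs h M h2
  have h4 : DCoh.IsPerfect ((DCoh.tildeD R).obj ((DRing.restrictD φ.hom).obj M)) :=
    (Groth.Agent.S1105.result R _).2 h3
  exact Dcoh.LocalD.isPerfect_of_iso (a.symm ≪≫ (DCoh.Rpush (Spec.map φ)).mapIso e) h4

lemma isPullback_fromSpec {X Y : Scheme.{u}} (f : X ⟶ Y) [IsAffineHom f] {V : Y.Opens}
    (hV : IsAffineOpen V) :
    IsPullback (hV.preimage f).fromSpec (Spec.map (f.app V)) f hV.fromSpec := by
  refine (IsOpenImmersion.isPullback _ _ _ _ ?_ ?_).flip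
  · rw [Scheme.Hom.app_eq_appLE]
    exact (hV.SpecMap_appLE_fromSpec f (hV.preimage f) le_rfl).symm
  · rw [IsAffineOpen.opensRange_fromSpec, IsAffineOpen.opensRange_fromSpec]

/-- The direct image of a perfect complex along a perfect closed immersion is perfect. -/
theorem isPerfect_Rpush {X Y : Scheme.{u}} (f : X ⟶ Y) [IsClosedImmersion f]
    (hf : MoreMor.IsPerfectMor f) [DCoh.HasRpush f] (E : DCoh.D X) (hE : DCoh.IsPerfect E) :
    DCoh.IsPerfect ((DCoh.Rpush f).obj E) := by
  refine Dcoh.LocalD.isPerfect_of_cover fun y => ?_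
  obtain ⟨_, ⟨V, hV, rfl⟩, hy, -⟩ := Y.isBasis_affineOpens.exists_subset_of_mem_open
    (Set.mem_univ y) isOpen_univ
  refine ⟨_, hV.fromSpec, inferInstance, by rw [hV.range_fromSpec]; exact hy, ?_⟩
  have := Dcoh.DerSch.hasRpush (Spec.map (f.app V))
  obtain ⟨e⟩ := Dcoh.DerSch.exists_rpushRestrictIso f (Spec.map (f.app V)) _ _
    (isPullback_fromSpec f hV)
  refine Dcoh.LocalD.isPerfect_of_iso (e.symm.app E) ?_
  refine spec_case (f.app V) (f.app_surjective V hV) ?_ _
    (Dcoh.LocalD.isPerfect_restrict (hV.preimage f).fromSpec hE)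
  have h1 := hf (f ⁻¹ᵁ V) V (hV.preimage f) hV le_rfl
  rw [← Scheme.Hom.app_eq_appLE] at h1
  exact h1

end Groth.Agent.Pic13.H935.PerfClosed
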